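import Cfsg.Agent.Lib.CoprimeAction.Aut
import Cfsg.Agent.Lib.PGroups.Frattini
import Mathlib

/-!
# The action on the linear characters of a normal subgroup
-/

set_option autoImplicit false
set_option linter.unusedSectionVars false
set_option linter.style.haveILetI false

namespace CfsgLib.SmallBlocks.NormalDef

variable {G : Type*} [Group G] {P L : Subgroup G}

/-- Conjugation on a normal subgroup inside a normal subgroup. -/
noncomputable def qConj (P L : Subgroup G) [P.Normal] [L.Normal] : G →* MulAut (P.subgroupOf L) where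
  toFun g :=
    { toFun := fun x => ⟨MulAut.conjNormal g (x : L), by
        rw [Subgroup.mem_subgroupOf, MulAut.conjNormal_apply]
        exact (inferInstance : P.Normal).conj_mem _ (Subgroup.mem_subgroupOf.1 x.2) g⟩
      invFun := fun x => ⟨MulAut.conjNormal g⁻¹ (x : L), by
        rw [Subgroup.mem_subgroupOf, MulAut.conjNormal_apply]
        exact (inferInstance : P.Normal).conj_mem _ (Subgroup.mem_subgroupOf.1 x.2) g⁻¹⟩
      left_inv := fun x => Subtype.ext (Subtype.ext (by simp [MulAut.conjNormal_apply, mul_assoc]))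
      right_inv := fun x => Subtype.ext (Subtype.ext (by simp [MulAut.conjNormal_apply, mul_assoc]))
      map_mul' := fun x y => Subtype.ext (Subtype.ext (by simp [MulAut.conjNormal_apply, mul_assoc])) }
  map_one' := MulEquiv.ext fun x => Subtype.ext (Subtype.ext (by simp))
  map_mul' a b := MulEquiv.ext fun x => Subtype.ext (Subtype.ext (by simp [mul_assoc]))

theorem qConj_coe [P.Normal] [L.Normal] (g : G) (x : P.subgroupOf L) :
    (((qConj P L g x : P.subgroupOf L) : L) : G) = g * ((x : L) : G) * g⁻¹ :=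
  MulAut.conjNormal_apply g (x : L)

/-- The action on the linear characters. -/
noncomputable def linAct (P L : Subgroup G) [P.Normal] [L.Normal] :
    G →* MulAut (P.subgroupOf L →* ℂˣ) where
  toFun g :=
    { toFun := fun l => l.comp (qConj P L g⁻¹).toMonoidHom
      invFun := fun l => l.comp (qConj P L g).toMonoidHom
      left_inv := fun l => MonoidHom.ext fun x => by
        show l (qConj P L g⁻¹ (qConj P L g x)) = l x
        rw [← MulAut.mul_apply, ← map_mul, inv_mul_cancel, map_one, MulAut.one_apply]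
      right_inv := fun l => MonoidHom.ext fun x => by
        show l (qConj P L g (qConj P L g⁻¹ x)) = l x
        rw [← MulAut.mul_apply, ← map_mul, mul_inv_cancel, map_one, MulAut.one_apply]
      map_mul' := fun l m => rfl }
  map_one' := MulEquiv.ext fun l => MonoidHom.ext fun x => by
    show l (qConj P L (1 : G)⁻¹ x) = l x
    rw [inv_one, map_one, MulAut.one_apply]
  map_mul' a b := MulEquiv.ext fun l => MonoidHom.ext fun x => by
    show l (qConj P L (a * b)⁻¹ x) = l (qConj P L b⁻¹ (qConj P L a⁻¹ x))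
    rw [mul_inv_rev, map_mul, MulAut.mul_apply]

theorem linAct_apply [P.Normal] [L.Normal] (g : G) (l : P.subgroupOf L →* ℂˣ)
    (x : P.subgroupOf L) : linAct P L g l x = l (qConj P L g⁻¹ x) := rfl

/-- An element of a `p'`-extension of `L` fixing all linear characters lies in `L`. -/
theorem mem_of_linAct [Finite G] {p : ℕ} [hp : Fact p.Prime] [P.Normal] [L.Normal] (hP : IsPGroup p P)
    (hPL : P ≤ L) (hCL : Subgroup.centralizer (P : Set G) ≤ L) {T : Subgroup G}
    (hidx : ¬ p ∣ L.relIndex T) {t : G} (ht : t ∈ T) (hfix : linAct P L t = 1) : t ∈ L := by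
  set Q := P.subgroupOf L with hQ
  have hQp : IsPGroup p Q := hP.comap_of_injective L.subtype Subtype.val_injective
  let K : Subgroup G := T ⊓ (linAct P L).ker
  have htK : t ∈ K := ⟨ht, hfix⟩
  let A : Subgroup (MulAut Q) := K.map (qConj P L)
  have hA : ∀ a ∈ A, ∀ x : Q, x⁻¹ * a x ∈ frattini Q := by
    rintro _ ⟨k, hk, rfl⟩ x
    refine PGroups.commutator_le_frattini hQp ?_
    by_contra hne
    obtain ⟨φ, hφ⟩ := CommGroup.exists_apply_ne_one_of_hasEnoughRootsOfUnity (Abelianization Q) ℂ
      (a := Abelianization.of (x⁻¹ * qConj P L k x))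
      fun h => hne (Abelianization.ker_of Q ▸ MonoidHom.mem_ker.2 h)
    have h1 := linAct_apply k (φ.comp Abelianization.of) (qConj P L k x)
    rw [show linAct P L k = 1 from hk.2, MulAut.one_apply, ← MulAut.mul_apply, ← map_mul (qConj P L),
      inv_mul_cancel, map_one (qConj P L), MulAut.one_apply] at h1
    refine hφ ?_
    rw [MonoidHom.comp_apply, MonoidHom.comp_apply] at h1
    rw [map_mul Abelianization.of, map_inv Abelianization.of, map_mul φ, map_inv φ, h1, inv_mul_cancel]
  obtain ⟨j, hj⟩ := (CoprimeAction.isPGroup_of_trivial_on_frattini_quotient hQp A hA)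
    ⟨qConj P L t, t, htK, rfl⟩
  have h1 : qConj P L (t ^ p ^ j) = 1 := by
    rw [map_pow]
    exact congrArg Subtype.val hj
  have h2 : t ^ p ^ j ∈ L := hCL (Subgroup.mem_centralizer_iff.2 fun x hx => by
    have h := congrArg (fun z : Q => ((z : L) : G))
      (DFunLike.congr_fun h1 (⟨⟨x, hPL hx⟩, Subgroup.mem_subgroupOf.2 hx⟩ : Q))
    simp only [qConj_coe, MulAut.one_apply] at h
    exact (mul_inv_eq_iff_eq_mul.1 h).symm)
  have h3 : t ^ L.relIndex T ∈ L := by
    exact Subgroup.pow_index_mem (H := L.subgroupOf T) (⟨t, ht⟩ : T)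
  have h4 : Nat.Coprime (p ^ j) (L.relIndex T) :=
    Nat.Coprime.pow_left j (hp.out.coprime_iff_not_dvd.2 hidx)
  have h5 : (p ^ j : ℤ) * Nat.gcdA (p ^ j) (L.relIndex T) +
      (L.relIndex T : ℤ) * Nat.gcdB (p ^ j) (L.relIndex T) = 1 := by
    have := Nat.gcd_eq_gcd_ab (p ^ j) (L.relIndex T)
    rw [h4.gcd_eq_one] at this
    exact_mod_cast this.symm
  rw [← zpow_one t, ← h5, zpow_add, zpow_mul, zpow_mul]
  refine L.mul_mem (L.zpow_mem ?_ _) (L.zpow_mem (by rwa [zpow_natCast]) _)
  rw [← Nat.cast_pow, zpow_natCast]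
  exact h2

end CfsgLib.SmallBlocks.NormalDef
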