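import Cfsg.Agent.Lib.BlockLocal.CanonicalChar
import Cfsg.Agent.Lib.Clifford.DetChar
import Cfsg.Agent.Lib.IBr.BrauerChar

/-!
# The members of a root block over the linear characters of the defect group
-/

set_option autoImplicit false
set_option linter.unusedSectionVars false
set_option linter.style.haveILetI false

open Finset Cfsg CfsgLib.Blocks CfsgLib.CharTheory CfsgLib.BlockLocal
open scoped ComplexConjugate

namespace CfsgLib.SmallBlocks.NormalDef

variable {H : Type*} [Group H] [Fintype H] {P : Subgroup H} [Fintype P]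

theorem isIrrCharacter_linHom (l : P →* ℂˣ) : IsIrrCharacter P fun x => (l x : ℂ) := by
  have hc : IsCharacter P (fun x => (l x : ℂ)) := Clifford.isCharacter_linFun l
  rw [isIrrCharacter_iff_norm_one hc, classInner]
  rw [Finset.sum_congr rfl fun x _ => by
    rw [Complex.mul_conj', Complex.norm_eq_one_of_pow_eq_one (n := Nat.card P) (by
      rw [← Units.val_pow_eq_pow_val, ← map_pow, pow_card_eq_one', map_one, Units.val_one])
      Nat.card_pos.ne', Complex.ofReal_one, one_pow], Finset.sum_const, Finset.card_univ, nsmul_one,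
    ← Nat.card_eq_fintype_card]
  exact inv_mul_cancel₀ (Nat.cast_ne_zero.2 Nat.card_pos.ne')

variable {p : ℕ} [Fact p.Prime] {M : Ideal AlgInt} [M.IsPrime] {B : Set (IrrCharacter H)}
  (hP : IsPGroup p P) (hG : P ⊔ Subgroup.centralizer (P : Set H) = ⊤)
  (hM : IsPModular p M) (hB : IsPBlock M B) (hD : IsDefectGroup p M B P)
  {θ : IrrCharacter H} (hθ : θ ∈ B) (hk : ∀ x ∈ P, (θ : H → ℂ) x = (θ : H → ℂ) 1)

include hP hG hM hB hD hθ hk

/-- Above every linear character of the defect group lies a member restricting to a multiple. -/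
theorem exists_linear_member (l : P →* ℂˣ) :
    ∃ χ ∈ B, ∀ x : P, (χ : H → ℂ) x = (θ : H → ℂ) 1 * l x := by
  classical
  haveI := Canonical.normal_of_sup_eq_top hG
  let φ : IrrCharacter P := ⟨fun x => (l x : ℂ), isIrrCharacter_linHom l⟩
  set h : ConjClasses P → ℂ := Quotient.lift (fun x : P => (φ : P → ℂ) x)
    (fun x y hxy => irr_apply_eq_of_isConj hxy φ) with hh
  have hne : ¬ ∀ η ∈ B, ∑ x : P, h (ConjClasses.mk x) * conj ((η : H → ℂ) x) = 0 := fun hall =>
    apply_one_ne_zero_of_isIrr φ.2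
      (congrFun (Canonical.eq_zero_of_pairing hP hG hM hB hD h hall) (ConjClasses.mk (1 : P)))
  push Not at hne
  obtain ⟨χ, hχ, hχφ⟩ := hne
  refine ⟨χ, hχ, ?_⟩
  have h1 : classInner (fun x : P => (χ : H → ℂ) x) (φ : P → ℂ) ≠ 0 := by
    rw [classInner_conj_symm]
    refine fun h0 => hχφ ?_
    rw [map_eq_zero_iff _ (RingHom.injective _), classInner, mul_eq_zero] at h0
    exact h0.resolve_left (inv_ne_zero (Nat.cast_ne_zero.2 Nat.card_pos.ne'))
  have hinv : ∀ g : H, CfsgLib.Clifford.conjChar P (φ : P → ℂ) g = φ := by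
    intro g
    funext x
    obtain ⟨y, hy, hyx⟩ := Canonical.exists_conj_eq hG g
    refine (irr_apply_eq_of_isConj (isConj_iff.2 ⟨⟨y, hy⟩, Subtype.ext ?_⟩) φ).symm
    exact (hyx x x.2).symm
  have hres := CfsgLib.Clifford.res_eq_of_invariant P χ.2 φ.2 hinv h1
  obtain ⟨e, he⟩ := IsCharacter.exists_classInner_eq_nat
    (CfsgLib.Coherence.isCharacter_comp (IsIrrCharacter.isCharacter χ.2) P.subtype) φ
  rw [show classInner (fun x : P => (χ : H → ℂ) (P.subtype x)) (φ : P → ℂ) =
    classInner (fun x : P => (χ : H → ℂ) x) (φ : P → ℂ) from rfl] at he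
  rw [he] at hres
  have hval : ∀ x : P, (χ : H → ℂ) x = (e : ℂ) * (φ : P → ℂ) x := fun x => congrFun hres x
  obtain ⟨d, hd, hd1⟩ := exists_degree_of_isIrr θ.2
  have hsum := Canonical.sum_restrict hP hG hM hB hD hθ hk hχ hχ
  rw [if_pos rfl, hd1, sum_congr rfl (g := fun x : P => (e : ℂ) ^ 2 *
    ((φ : P → ℂ) x * conj ((φ : P → ℂ) x))) (fun x _ => by
      rw [hval, map_mul, map_natCast]; ring), ← mul_sum] at hsum
  have hφn := classInner_self_of_isIrr φ.2
  rw [classInner, inv_mul_eq_iff_eq_mul₀ (Nat.cast_ne_zero.2 Nat.card_pos.ne'), mul_one] at hφn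
  rw [hφn, mul_comm (Nat.card P : ℂ)] at hsum
  have hed : e = d := by
    have h2 : ((e ^ 2 : ℕ) : ℂ) = ((d ^ 2 : ℕ) : ℂ) := by
      push_cast
      exact mul_right_cancel₀ (Nat.cast_ne_zero.2 Nat.card_pos.ne') hsum
    exact Nat.pow_left_injective two_ne_zero (Nat.cast_injective h2)
  intro x
  rw [hval, hed, hd1]

/-- The member above `l`. -/
noncomputable def linMember (l : P →* ℂˣ) : IrrCharacter H :=
  (exists_linear_member hP hG hM hB hD hθ hk l).choose

theorem linMember_mem (l : P →* ℂˣ) : linMember hP hG hM hB hD hθ hk l ∈ B :=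
  (exists_linear_member hP hG hM hB hD hθ hk l).choose_spec.1

theorem linMember_apply (l : P →* ℂˣ) (x : P) :
    (linMember hP hG hM hB hD hθ hk l : H → ℂ) x = (θ : H → ℂ) 1 * l x :=
  (exists_linear_member hP hG hM hB hD hθ hk l).choose_spec.2 x

theorem linMember_apply_one (l : P →* ℂˣ) :
    (linMember hP hG hM hB hD hθ hk l : H → ℂ) 1 = (θ : H → ℂ) 1 := by
  have h := linMember_apply hP hG hM hB hD hθ hk l 1
  rwa [OneMemClass.coe_one, map_one, Units.val_one, mul_one] at h

theorem eq_linMember {χ : IrrCharacter H} (hχ : χ ∈ B) {l : P →* ℂˣ}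
    (h : ∀ x : P, (χ : H → ℂ) x = (θ : H → ℂ) 1 * l x) :
    χ = linMember hP hG hM hB hD hθ hk l := by
  classical
  by_contra hne
  have hs := Canonical.sum_restrict hP hG hM hB hD hθ hk hχ (linMember_mem hP hG hM hB hD hθ hk l)
  have hs' := Canonical.sum_restrict hP hG hM hB hD hθ hk hχ hχ
  rw [if_neg hne] at hs
  rw [if_pos rfl] at hs'
  simp only [linMember_apply, h] at hs hs'
  exact mul_ne_zero (Nat.cast_ne_zero.2 Nat.card_pos.ne')
    (pow_ne_zero _ (apply_one_ne_zero_of_isIrr θ.2)) (hs'.symm.trans hs)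

theorem linMember_injective : Function.Injective (linMember hP hG hM hB hD hθ hk) := by
  intro a b hab
  refine MonoidHom.ext fun x => Units.ext ?_
  have h1 := linMember_apply hP hG hM hB hD hθ hk a x
  rw [hab, linMember_apply] at h1
  exact (mul_left_cancel₀ (apply_one_ne_zero_of_isIrr θ.2) h1).symm

theorem linMember_one : linMember hP hG hM hB hD hθ hk 1 = θ :=
  (eq_linMember hP hG hM hB hD hθ hk hθ fun x => by
    rw [hk x x.2, MonoidHom.one_apply, Units.val_one, mul_one]).symm

/-- All these members agree on the regular elements. -/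
theorem linMember_regular (l : P →* ℂˣ) {s : H} (hs : ¬ p ∣ orderOf s) :
    (linMember hP hG hM hB hD hθ hk l : H → ℂ) s = (θ : H → ℂ) s := by
  rw [Canonical.apply_regular hP hG hM hB hD hθ hk (linMember_mem hP hG hM hB hD hθ hk l) hs,
    linMember_apply_one, div_self (apply_one_ne_zero_of_isIrr θ.2), one_mul]

/-- The canonical character vanishes or only sees the regular part. -/
theorem canonical_reg {S : IBr.PSys p M} (hS : S.Fits H) (g : H) :
    (θ : H → ℂ) g = 0 ∨ (θ : H → ℂ) g = (θ : H → ℂ) (S.reg g) := by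
  obtain ⟨x, hx⟩ := exists_isPPart p g
  by_cases hxP : x ∈ P
  · obtain ⟨s, hs, hc, ⟨j, hj⟩, hsr⟩ := id hx
    right
    have hregx : S.reg x = 1 := by
      refine Canonical.eq_one_of_both (p := p) ?_ ((hS.reg_eq_self_iff _).1 (hS.reg_reg x))
      obtain ⟨i, -, hi⟩ := (Nat.dvd_prime_pow (Fact.out : p.Prime)).1
        ((orderOf_pow_dvd S.e).trans (dvd_of_eq hj))
      exact ⟨i, hi⟩
    have hregg : S.reg g = s := by
      have h1 : S.reg x = x ^ S.e := rfl
      rw [IBr.PSys.reg, ← hs, hc.mul_pow, ← h1, hregx, one_mul]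
      exact (hS.reg_eq_self_iff s).2 hsr
    rw [hregg, ← hs, Canonical.apply_mul_eq hG θ hxP
      (fun y hy => Canonical.commute_of_regular hP hG hsr hy), hk x hxP,
      mul_div_assoc, mul_div_cancel₀ _ (apply_one_ne_zero_of_isIrr θ.2)]
  · left
    exact Canonical.apply_eq_zero hG hM hB hD hθ hx hxP

end CfsgLib.SmallBlocks.NormalDef
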