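import Cfsg.Agent.Lib.SmallBlocks.NormalDef.Count
import Cfsg.Agent.Lib.SmallBlocks.NormalDef.Root
import Cfsg.Agent.Lib.SmallBlocks.NormalDef.LinAct
import Cfsg.Agent.Lib.BlockLocal.HeightAbelian
import Cfsg.Agent.Lib.RealChar.DegreeRatio

/-!
# Blocks with a normal defect group and at most three characters of height zero
-/

set_option autoImplicit false
set_option linter.unusedSectionVars false
set_option linter.style.haveILetI false

open Cfsg CfsgLib.Blocks CfsgLib.CharTheory CfsgLib.BrauerPairs CfsgLib.BlockLocal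
  CfsgLib.RelMcKay

namespace CfsgLib.SmallBlocks.NormalDef

universe u v

theorem sum_stab_orbit {E : Type u} [Group E] [Fintype E] {Λ : Type v} [Fintype Λ]
    [MulAction E Λ] (v : Λ) [DecidablePred (· ∈ MulAction.orbit E v)] :
    ∑ x ∈ Finset.univ.filter (· ∈ MulAction.orbit E v), Nat.card (MulAction.stabilizer E x) =
      Nat.card E := by
  classical
  have h2 := MulAction.card_orbit_mul_card_stabilizer_eq_card_group E v
  simp only [← Nat.card_eq_fintype_card] at h2
  have hs : ∀ x ∈ Finset.univ.filter (· ∈ MulAction.orbit E v),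
      Nat.card (MulAction.stabilizer E x) = Nat.card (MulAction.stabilizer E v) := by
    intro x hx
    have h1 := MulAction.card_orbit_mul_card_stabilizer_eq_card_group E x
    simp only [← Nat.card_eq_fintype_card] at h1
    rw [MulAction.orbit_eq_iff.2 (Finset.mem_filter.1 hx).2] at h1
    exact Nat.eq_of_mul_eq_mul_left
      (@Nat.card_pos _ ⟨⟨v, MulAction.mem_orbit_self v⟩⟩ _) (h1.trans h2.symm)
  rw [Finset.sum_congr rfl hs, Finset.sum_const, smul_eq_mul, ← h2]
  congr 1
  rw [← Nat.card_eq_finsetCard]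
  exact Nat.card_congr (Equiv.subtypeEquivRight fun x => by simp)

/-- There is a character over an invariant one. -/
theorem overIrr_card_pos {G : Type u} [Group G] [Finite G] {N : Subgroup G} [N.Normal]
    {θ : G → ℂ} (hθ : IsIrrOn N θ) : 0 < (overIrr (stab θ) N θ).card := by
  classical
  set R := stab θ
  haveI := Fintype.ofFinite R
  have hNR : N ≤ R := hθ.le_stab
  have hRN : R ≤ Subgroup.normalizer (N : Set G) := by
    rw [Subgroup.normalizer_eq_top]; exact le_top
  have h := card_overIrr (K := N) (C := N) (R := R) hRN (inf_eq_right.2 hNR) hθ le_rfl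
  rw [sup_eq_right.2 hNR] at h
  refine Nat.pos_of_ne_zero fun h0 => ?_
  rw [h0, zero_mul] at h
  have h1 := Finset.sum_eq_zero_iff.1 h.symm (1 : R) (Finset.mem_univ _)
  have hgood : GoodEl N N R θ ((1 : R) : G) := by
    intro y hy _
    rw [OneMemClass.coe_one, Subgroup.zpowers_one_eq_bot, sup_bot_eq]
    haveI := Subgroup.isCyclic_zpowers y
    exact exists_ext_cyclic (Subgroup.zpowers_le.2 (hRN hy)) hθ (Subgroup.zpowers_le.2 hy)
  rw [goodWeight, if_pos hgood] at h1
  exact absurd h1 (@Nat.card_pos _ ⟨⟨1, by simp⟩⟩ _).ne'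

variable {G : Type u} [Group G] [Finite G] {p : ℕ} [Fact p.Prime] {M : Ideal AlgInt} [M.IsPrime]
  {B : Set (IrrCharacter G)} {P : Subgroup G}

/-- At most three characters of height zero leave at most three linear characters of `P`. -/
theorem card_lin_le_three [P.Normal] (hp2 : p ≠ 2) (hM : IsPModular p M) (hB : IsPBlock M B)
    (hP : IsDefectGroup p M B P)
    (h3 : Nat.card {χ : IrrCharacter G // χ ∈ B ∧ blockHeight p B (χ : G → ℂ) = 0} ≤ 3) :
    Nat.card (P →* ℂˣ) ≤ 3 := by
  classical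
  haveI := Fintype.ofFinite G
  haveI : M.IsMaximal := hM.2.1
  haveI := Blocks.charP_res hM
  haveI : IsAlgClosed (Blocks.Res M) := Blocks.isAlgClosed_res
  have hp : p.Prime := Fact.out
  have hPp := isPGroup_of_isDefectGroup hP
  set C := Subgroup.centralizer (P : Set G) with hC
  set L := P ⊔ C with hL
  obtain ⟨b, hbD, hind⟩ : ∃ b : Set (IrrCharacter L),
      IsDefectGroup p M b (P.subgroupOf L) ∧ IsInducedBlock M L b B := exists_root hM hB hP
  have hmax : IsMaxPair p (⊤ : Subgroup G) (redElem M (blockCoeff B)) P (subIdem M L b) :=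
    isMaxPair_of_induced hM hP hind
  have hNtop : Subgroup.normalizer (P : Set G) = ⊤ := Subgroup.normalizer_eq_top_iff.2 inferInstance
  have hcjL : ∀ g : G, L = cj g L := fun g =>
    cj_sup_centralizer (P := P) (by rw [hNtop]; exact Subgroup.mem_top g)
  haveI hLn : L.Normal := by
    refine ⟨fun x hx g => ?_⟩
    rw [hcjL g]
    exact ⟨x, hx, rfl⟩
  haveI := Fintype.ofFinite L
  set e := subIdem M L b with he
  set T := pairStab (⊤ : Subgroup G) P e with hT
  have hbi := isBlockIdem_redElem_blockCoeff (M := M) hB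
  have hLT : L ≤ T := sup_centralizer_le_pairStab hmax.1.1
  have hidx : ¬ p ∣ L.relIndex T := by
    obtain ⟨hPT, hPg, hne, a, ha, haD, htr⟩ := hmax.isDefectIn_stab hbi
    have hCT : cenIn (⊤ : Subgroup G) P ≤ T := cenIn_le_pairStab hmax.1.1
    have hTC : T ≤ Subgroup.normalizer (cenIn (⊤ : Subgroup G) P : Set G) := fun t ht =>
      mem_normalizer_cenIn (Subgroup.mem_top t) (Subgroup.mem_inf.1 (Subgroup.mem_inf.1 ht).1).2
    have hTT : IsDefectIn p T T e P := ⟨hPT, hPg, hne, a, supp_mono hCT ha, haD, htr⟩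
    have h := hTT.relIndex_ne_zero hmax.1.1.2.2 (fun t ht => (Subgroup.mem_inf.1 ht).2) hCT hTC
    rw [cenIn_top] at h
    intro hd
    exact h ((CharP.cast_eq_zero_iff (Blocks.Res M) p _).2 hd)
  -- the root block and its members
  set Q := P.subgroupOf L with hQ
  haveI := Fintype.ofFinite Q
  have hQp : IsPGroup p Q := hPp.comap_of_injective L.subtype Subtype.val_injective
  have hQG : Q ⊔ Subgroup.centralizer (Q : Set L) = ⊤ := by
    refine eq_top_iff.2 fun x _ => ?_
    obtain ⟨y, hy, c, hc, hyc⟩ := Set.mem_mul.1 (Subgroup.coe_mul_of_right_le_normalizer_left P _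
      (Subgroup.centralizer_le_normalizer _) ▸ (show (x : G) ∈ ((L : Subgroup G) : Set G) from x.2))
    have hxe : x = (⟨y, (le_sup_left : P ≤ L) hy⟩ : L) * ⟨c, (le_sup_right : C ≤ L) hc⟩ :=
      Subtype.ext hyc.symm
    rw [hxe]
    refine Subgroup.mul_mem_sup hy (Subgroup.mem_centralizer_iff.2 fun u hu => Subtype.ext ?_)
    exact Subgroup.mem_centralizer_iff.1 hc _ hu
  obtain ⟨θ, hθb, hθk⟩ := Canonical.exists_kernel_member hQp hQG hM hind.1 hbD
  set lm := linMember hQp hQG hM hind.1 hbD hθb hθk with hlm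
  have hlmb : ∀ l, lm l ∈ b := linMember_mem hQp hQG hM hind.1 hbD hθb hθk
  have hlma : ∀ l (x : Q), (lm l : L → ℂ) x = (θ : L → ℂ) 1 * l x :=
    linMember_apply hQp hQG hM hind.1 hbD hθb hθk
  have hlmu : ∀ {χ : IrrCharacter L}, χ ∈ b → ∀ {l : Q →* ℂˣ},
      (∀ x : Q, (χ : L → ℂ) x = (θ : L → ℂ) 1 * l x) → χ = lm l :=
    eq_linMember hQp hQG hM hind.1 hbD hθb hθk
  have hlminj : Function.Injective lm := linMember_injective hQp hQG hM hind.1 hbD hθb hθk
  -- conjugation permutes the members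
  have hmove : ∀ t ∈ T, ∀ l, compIrr (cjEquiv t (hcjL t)) (lm l) = lm (linAct P L t l) := by
    intro t ht l
    refine hlmu ?_ fun x => ?_
    · have himg : compIrr (cjEquiv t (hcjL t)) '' b = b := by
        refine subIdem_injective (isPBlock_image_compIrr _ hind.1) hind.1 ?_
        rw [subIdem_image]
        exact (mem_pairStab.1 ht).2.2
      exact himg ▸ ⟨lm l, hlmb l, rfl⟩
    · have hx : cjEquiv t (hcjL t) (x : L) = ((qConj P L t⁻¹ x : Q) : L) := Subtype.ext (by
        rw [qConj_coe, coe_cjEquiv, inv_inv])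
      rw [compIrr_apply, hx, hlma, linAct_apply]
  have hfixT : ∀ (g : G) (l l' : Q →* ℂˣ), compIrr (cjEquiv g (hcjL g)) (lm l) = lm l' → g ∈ T := by
    intro g l l' hg
    refine mem_pairStab.2 ⟨Subgroup.mem_top g, by rw [hNtop]; exact Subgroup.mem_top g, ?_⟩
    rw [he, ← subIdem_image (hcjL g) b,
      isPBlock_eq_of_mem (isPBlock_image_compIrr _ hind.1) hind.1 ⟨lm l, hlmb l, hg⟩ (hlmb l')]
  have hinner : ∀ t ∈ L, linAct P L t = 1 := by
    intro t ht
    refine MulEquiv.ext fun l => hlminj ((hmove t (hLT ht) l).symm.trans (Subtype.ext (funext fun n => ?_)))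
    rw [compIrr_apply, show cjEquiv t (hcjL t) n = ⟨t, ht⟩⁻¹ * n * ⟨t, ht⟩⁻¹⁻¹ from Subtype.ext (by
      simp [coe_cjEquiv])]
    exact IsIrrCharacter.isClassFunction (lm l).2 _ _
  -- the functions on `G`
  set θG : (Q →* ℂˣ) → G → ℂ := fun l => extendByZero L (lm l : L → ℂ) with hθG
  have hθGirr : ∀ l, IsIrrOn L (θG l) := fun l => isIrrOn_extend (lm l).2
  have hθGa : ∀ l (n : L), θG l n = (lm l : L → ℂ) n := fun l n => Frobenius.extendByZero_coe L _ n
  have hθGcj : ∀ t ∈ T, ∀ l (x : G), θG l (t⁻¹ * x * t) = θG (linAct P L t l) x := by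
    intro t ht l x
    by_cases hx : x ∈ L
    · have h1 := congrFun (congrArg Subtype.val (hmove t ht l)) ⟨x, hx⟩
      rw [compIrr_apply] at h1
      exact ((hθGa l (cjEquiv t (hcjL t) ⟨x, hx⟩)).trans h1).trans (hθGa _ ⟨x, hx⟩).symm
    · rw [(hθGirr l).2 _ fun h => hx (by simpa [mul_assoc] using hLn.conj_mem _ h t),
        (hθGirr _).2 x hx]
  have hθGinj : Function.Injective θG := fun a c hac => hlminj (Subtype.ext (funext fun n => by
    rw [← hθGa, hac, hθGa]))
  -- inside `T`
  set N := L.subgroupOf T with hN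
  set θT : (Q →* ℂˣ) → T → ℂ := fun l t => θG l (t : G) with hθT
  let eN : N ≃* L := Subgroup.subgroupOfEquivOfLe hLT
  have hθTirr : ∀ l, IsIrrOn N (θT l) := by
    intro l
    refine ⟨?_, fun t ht => (hθGirr l).2 _ fun h => ht (Subgroup.mem_subgroupOf.2 h)⟩
    rw [show (fun n : N => θT l n) = fun n => (lm l : L → ℂ) (eN n) from
      funext fun n => hθGa l (eN n)]
    exact isIrrCharacter_comp_mulEquiv (lm l).2 eN
  have hstab : ∀ l (t : T), t ∈ stab (θT l) ↔ linAct P L (t : G) l = l := by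
    intro l t
    constructor
    · intro h
      refine hθGinj (funext fun x => ?_)
      by_cases hx : x ∈ L
      · rw [← hθGcj t t.2 l x]
        have h1 := congrFun (mem_stab.1 ((stab (θT l)).inv_mem h)) ⟨x, hLT hx⟩
        rw [cj_apply, inv_inv] at h1
        exact h1
      · rw [(hθGirr _).2 x hx, (hθGirr l).2 x hx]
    · intro h
      refine mem_stab.2 (funext fun x => ?_)
      show θG l ((t : G) * (x : G) * (t : G)⁻¹) = θG l (x : G)
      have h1 := hθGcj (t : G)⁻¹ (inv_mem t.2) l (x : G)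
      rw [inv_inv] at h1
      rw [h1]
      congr 1
      conv_lhs => rw [← h, map_inv]
      rw [← MulAut.mul_apply, inv_mul_cancel, MulAut.one_apply]
  -- the quotient acting
  let ψ : T ⧸ N →* MulAut (Q →* ℂˣ) := QuotientGroup.lift N ((linAct P L).comp T.subtype)
    fun t ht => hinner _ (Subgroup.mem_subgroupOf.1 ht)
  letI : MulDistribMulAction (T ⧸ N) (Q →* ℂˣ) :=
    { smul := fun x l => ψ x l
      one_smul := fun l => DFunLike.congr_fun (map_one ψ) l
      mul_smul := fun x y l => DFunLike.congr_fun (map_mul ψ x y) l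
      smul_one := fun x => map_one (ψ x)
      smul_mul := fun x a c => map_mul (ψ x) a c }
  have hsmul : ∀ (t : T) (l : Q →* ℂˣ), (QuotientGroup.mk t : T ⧸ N) • l = linAct P L (t : G) l :=
    fun t l => rfl
  haveI : Fintype (T ⧸ N) := Fintype.ofFinite _
  haveI : Fintype (Q →* ℂˣ) := Fintype.ofFinite _
  have hfaith : ∀ x : T ⧸ N, (∀ l : Q →* ℂˣ, x • l = l) → x = 1 := by
    intro x hx
    obtain ⟨t, rfl⟩ := QuotientGroup.mk_surjective x
    exact (QuotientGroup.eq_one_iff t).2 (Subgroup.mem_subgroupOf.2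
      (mem_of_linAct hPp le_sup_left le_sup_right hidx t.2 (MulEquiv.ext fun l => (hsmul t l).symm.trans (hx l))))
  have hE : ¬ p ∣ Nat.card (T ⧸ N) := by
    rw [← Subgroup.index_eq_card]
    exact hidx
  have hΛ : IsPGroup p (Q →* ℂˣ) := by
    intro l
    obtain ⟨k, hk⟩ := IsPGroup.iff_card.1 hQp
    refine ⟨k, MonoidHom.ext fun x => ?_⟩
    show (l x) ^ p ^ k = 1
    rw [← map_pow, ← hk, pow_card_eq_one', map_one]
  -- the representation and its pairing
  obtain ⟨d, ρ, hρirr, hρc⟩ := (hθTirr 1).1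
  haveI := hρirr
  have hρ : ∀ n : N, θT 1 n = ρ.character n := fun n => (congrFun hρc n).symm
  have hfix1 : ∀ t : T, t ∈ stab (θT 1) := fun t => (hstab 1 t).2 (map_one _)
  have hinv : ∀ (t : T) (n : N), ρ.character (MulAut.conjNormal t n) = ρ.character n := by
    intro t n
    rw [← hρ, ← hρ, MulAut.conjNormal_apply]
    exact congrFun (mem_stab.1 (hfix1 t)) (n : T)
  set τ := twist N ρ hinv with hτ
  obtain ⟨S, hS, -, -⟩ := IBr.exists_system hM (Nat.card G) Nat.card_pos.ne'
  have hSG : S.Fits G := hS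
  have hST : S.Fits T := hSG.subgroup T
  have hSL : S.Fits L := hSG.subgroup L
  have hregc : ∀ t : T, ((S.reg t : T) : G) = S.reg (t : G) := fun t => by simp [IBr.PSys.reg]
  have hregL : ∀ (l : Q →* ℂˣ) (n : L), θG l (S.reg (n : G)) = (θ : L → ℂ) (S.reg n) := by
    intro l n
    rw [show S.reg (n : G) = ((S.reg n : L) : G) by simp [IBr.PSys.reg], hθGa]
    exact linMember_regular hQp hQG hM hind.1 hbD hθb hθk l
      ((hSL.reg_eq_self_iff _).1 (hSL.reg_reg n))
  have hreg : ∀ l, ∀ x ∈ N, θT l (S.reg x) = θT 1 (S.reg x) := by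
    intro l x hx
    show θG l ((S.reg x : T) : G) = θG 1 ((S.reg x : T) : G)
    rw [hregc, hregL l ⟨x, Subgroup.mem_subgroupOf.1 hx⟩, hregL 1 ⟨x, Subgroup.mem_subgroupOf.1 hx⟩]
  have hdef : ∀ x ∈ N, θT 1 x = 0 ∨ θT 1 x = θT 1 (S.reg x) := by
    intro x hx
    have h1 : θT 1 x = (θ : L → ℂ) ⟨x, Subgroup.mem_subgroupOf.1 hx⟩ := by
      show θG 1 (x : G) = _
      rw [hθGa 1 ⟨x, Subgroup.mem_subgroupOf.1 hx⟩, hlm,
        linMember_one hQp hQG hM hind.1 hbD hθb hθk]
    have h2 : θT 1 (S.reg x) = (θ : L → ℂ) (S.reg (⟨x, Subgroup.mem_subgroupOf.1 hx⟩ : L)) := by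
      show θG 1 ((S.reg x : T) : G) = _
      rw [hregc]
      exact hregL 1 ⟨x, Subgroup.mem_subgroupOf.1 hx⟩
    rw [h1, h2]
    exact canonical_reg hQp hQG hM hind.1 hbD hθb hθk hSL _
  have hNidx : ¬ p ∣ N.index := hidx
  -- the weights
  set m : (Q →* ℂˣ) → ℕ := fun l => (overIrr (stab (θT l)) N (θT l)).card with hm
  have hm0 : ∀ l, 0 < m l := fun l => overIrr_card_pos (hθTirr l)
  have hone : ∑ y ∈ Finset.univ.filter τ.Good,
      Nat.card (Subgroup.centralizer ({y} : Set (T ⧸ N))) ≤ m 1 * Nat.card (T ⧸ N) := by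
    have h := sum_good_le hST hNidx ρ hinv (hθTirr 1) hρ hfix1 hdef
    rw [Subgroup.index_eq_card] at h
    show _ ≤ (overIrr (stab (θT 1)) N (θT 1)).card * _
    rwa [show stab (θT 1) = ⊤ from eq_top_iff.2 fun t _ => hfix1 t]
  have hbad : ∀ l : Q →* ℂˣ, l ≠ 1 → m l = 1 → ∀ x : T ⧸ N, x ≠ 1 → x • l = l →
      ∃ y, Commute x y ∧ y • l = l ∧ τ.β x y ≠ 1 := by
    intro l _ hl x hx hxl
    obtain ⟨r, rfl⟩ := QuotientGroup.mk_surjective x
    obtain ⟨y, hy, hc, hne⟩ := exists_pairing_ne_one hST hNidx ρ hinv (hθTirr 1) hρ hfix1 hdef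
      (hθTirr l) (hreg l) hl ((hstab l r).2 ((hsmul r l).symm.trans hxl))
      (fun h => hx ((QuotientGroup.eq_one_iff r).2 h))
    exact ⟨(y : T ⧸ N), hc, (hsmul y l).trans ((hstab l y).1 hy), hne⟩
  -- the characters of height zero above a member
  haveI := Fintype.ofFinite (IrrCharacter G)
  set F0 := Finset.univ.filter fun χ : IrrCharacter G => χ ∈ B ∧ blockHeight p B (χ : G → ℂ) = 0
    with hF0
  let Ov : (Q →* ℂˣ) → IrrCharacter G → Prop := fun l χ =>
    classInner (fun n : L => (χ : G → ℂ) n) (lm l : L → ℂ) ≠ 0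
  have hmle : ∀ l, m l ≤ (F0.filter (Ov l)).card := by
    intro l
    set Sl := T ⊓ stab (θG l) with hSl
    have hLSl : L ≤ Sl := le_inf hLT (hθGirr l).le_stab
    haveI := Fintype.ofFinite Sl
    have hSlmem : ∀ g : G, g ∈ Sl ↔ Clifford.conjChar L (lm l : L → ℂ) g = (lm l : L → ℂ) := by
      intro g
      constructor
      · intro hg
        funext n
        rw [Clifford.conjChar_apply, ← hθGa l ⟨_, hLn.conj_mem _ n.2 g⟩, ← hθGa l n]
        exact congrFun (mem_stab.1 hg.2) (n : G)
      · intro hg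
        refine ⟨?_, mem_stab.2 (funext fun x => ?_)⟩
        · have h1 : compIrr (cjEquiv g⁻¹ (hcjL g⁻¹)) (lm l) = lm l := Subtype.ext (funext fun n => by
            rw [compIrr_apply]
            refine Eq.trans ?_ (congrFun hg n)
            rw [Clifford.conjChar_apply]
            exact congrArg _ (Subtype.ext (by simp [coe_cjEquiv])))
          simpa using inv_mem (hfixT g⁻¹ l l h1)
        · rw [cj_apply]
          by_cases hx : x ∈ L
          · have h1 := congrFun hg ⟨x, hx⟩
            rw [Clifford.conjChar_apply, ← hθGa l ⟨_, hLn.conj_mem x hx g⟩, ← hθGa l ⟨x, hx⟩] at h1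
            exact h1
          · rw [(hθGirr l).2 x hx,
              (hθGirr l).2 _ fun h => hx (by simpa [mul_assoc] using hLn.conj_mem _ h g⁻¹)]
    have hsub : stab (θT l) = Sl.subgroupOf T := by
      ext t
      rw [Subgroup.mem_subgroupOf, Subgroup.mem_inf]
      constructor
      · intro h
        refine ⟨t.2, mem_stab.2 (funext fun x => ?_)⟩
        rw [cj_apply]
        by_cases hx : x ∈ L
        · exact congrFun (mem_stab.1 h) ⟨x, hLT hx⟩
        · rw [(hθGirr l).2 x hx,
            (hθGirr l).2 _ fun h' => hx (by simpa [mul_assoc] using hLn.conj_mem _ h' (t : G)⁻¹)]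
      · exact fun h => mem_stab.2 (funext fun x => congrFun (mem_stab.1 h.2) (x : G))
    let eS : Sl ≃* stab (θT l) :=
      (Subgroup.subgroupOfEquivOfLe (inf_le_left : Sl ≤ T)).symm.trans
        (MulEquiv.subgroupCongr hsub.symm)
    let res : (T → ℂ) → Sl → ℂ := fun f s => f ⟨(s : G), s.2.1⟩
    have hres : ∀ f ∈ overIrr (stab (θT l)) N (θT l), IsIrrCharacter Sl (res f) ∧
        classInner (fun n : L => res f ⟨(n : G), hLSl n.2⟩) (lm l : L → ℂ) ≠ 0 := by
      intro f hf
      obtain ⟨hf1, hf2⟩ := mem_overIrr.1 hf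
      refine ⟨isIrrCharacter_comp_mulEquiv hf1.1 eS, fun h0 => hf2 ?_⟩
      haveI := Fintype.ofFinite N
      rw [mu, ip_eq, show (fun n : N => f n) = fun n => res f ⟨(eN n : G), hLSl (eN n).2⟩ from rfl,
        show (fun n : N => θT l n) = fun n => (lm l : L → ℂ) (eN n) from
          funext fun n => hθGa l (eN n),
        Clifford.classInner_comp_mulEquiv eN (fun n : L => res f ⟨(n : G), hLSl n.2⟩) (lm l : L → ℂ),
        h0]
      simp
    refine Finset.card_le_card_of_injOn (fun f => if h : IsIrrCharacter G (indFun Sl (res f)) then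
      ⟨indFun Sl (res f), h⟩ else trivIrr G) (fun f hf => ?_) (fun f hf f' hf' heq => ?_)
    · obtain ⟨h1, h2⟩ := hres f hf
      obtain ⟨hi, hmult⟩ := Clifford.isIrrCharacter_indFun_inertia (lm l).2 hSlmem hLSl h1 h2
      simp only [dif_pos hi, Finset.coe_filter, Set.mem_setOf_eq]
      set χ : IrrCharacter G := ⟨indFun Sl (res f), hi⟩
      have hcon : classInner (fun n : L => (χ : G → ℂ) n) (lm l : L → ℂ) ≠ 0 := by
        show classInner (fun n : L => indFun Sl (res f) n) _ ≠ 0
        rw [hmult]; exact h2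
      have hχB : χ ∈ B := by
        have h := isInducedBlock_of_covered hM P hPp L le_sup_right hind.1
          (isPBlock_blockOf (M := M) χ) ⟨χ, mem_blockOf_self χ, lm l, hlmb l, hcon⟩
        rw [CfsgLib.BlockSections.eq_of_isInducedBlock hind h]
        exact mem_blockOf_self χ
      refine ⟨Finset.mem_filter.2 ⟨Finset.mem_univ _, hχB, ?_⟩, hcon⟩
      obtain ⟨r, hr, hχ1⟩ := RealChar.degree_div_dvd_index L χ.2 (lm l).2 hcon
      obtain ⟨d0, hd0, hd01⟩ := exists_degree_of_isIrr θ.2
      rw [hlm, linMember_apply_one, hd01] at hχ1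
      have hdeg : charDegree (χ : G → ℂ) = r * d0 := by
        simp [charDegree, hχ1, ← Nat.cast_mul]
      have hθd : charDegree (θ : L → ℂ) = d0 := by simp [charDegree, hd01]
      have hv := (Canonical.index_factorization_of_defect hQp hQG hM hind.1 hθb hθk hbD).1
      rw [hθd] at hv
      have hr0 : r ≠ 0 := fun h => Subgroup.index_ne_zero_of_finite (H := L)
        (Nat.eq_zero_of_zero_dvd (h ▸ hr))
      rw [blockHeight, sInf_eq_index_of_defect hM hB hP, Nat.sub_eq_zero_iff_le, hdeg,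
        Nat.factorization_mul hr0 hd0.ne', Finsupp.add_apply, hv,
        ← Subgroup.relIndex_mul_index (le_sup_left : P ≤ L),
        Nat.factorization_mul (a := P.relIndex L) (b := L.index)
          (Subgroup.index_ne_zero_of_finite (H := P.subgroupOf L))
          Subgroup.index_ne_zero_of_finite, Finsupp.add_apply, add_comm]
      exact Nat.add_le_add_left
        ((Nat.factorization_le_iff_dvd hr0 Subgroup.index_ne_zero_of_finite).2 hr p) _
    · obtain ⟨h1, h2⟩ := hres f hf
      obtain ⟨h1', h2'⟩ := hres f' hf'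
      obtain ⟨hi, -⟩ := Clifford.isIrrCharacter_indFun_inertia (lm l).2 hSlmem hLSl h1 h2
      obtain ⟨hi', -⟩ := Clifford.isIrrCharacter_indFun_inertia (lm l).2 hSlmem hLSl h1' h2'
      simp only [dif_pos hi, dif_pos hi', Subtype.mk.injEq] at heq
      have h := Clifford.indFun_inertia_injective (lm l).2 hSlmem hLSl h1 h1' h2 h2' heq
      refine (mem_overIrr.1 hf).1.ext (mem_overIrr.1 hf').1 fun t ht => ?_
      exact congrFun h ⟨(t : G), Subgroup.mem_subgroupOf.1 (hsub ▸ ht)⟩
  -- counting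
  have hbound : ∑ l : Q →* ℂˣ, m l * Nat.card (MulAction.stabilizer (T ⧸ N) l) ≤
      3 * Nat.card (T ⧸ N) := by
    refine (Finset.sum_le_sum fun l _ => Nat.mul_le_mul_right _ (hmle l)).trans ?_
    simp only [Finset.card_filter, Finset.sum_mul, ite_mul, one_mul, zero_mul]
    rw [Finset.sum_comm]
    refine (Finset.sum_le_card_nsmul _ _ (Nat.card (T ⧸ N)) fun χ _ => ?_).trans ?_
    · rw [← Finset.sum_filter]
      rcases (Finset.univ.filter fun l => Ov l χ).eq_empty_or_nonempty with hA | ⟨v, hv⟩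
      · rw [hA, Finset.sum_empty]
        exact Nat.zero_le _
      · rw [← sum_stab_orbit (E := T ⧸ N) v]
        refine Finset.sum_le_sum_of_subset fun u hu => Finset.mem_filter.2 ⟨Finset.mem_univ _, ?_⟩
        obtain ⟨g, hg⟩ := Clifford.exists_conj_of_constituents L χ.2 (lm v).2 (lm u).2
          (Finset.mem_filter.1 hv).2 (Finset.mem_filter.1 hu).2
        have h1 : compIrr (cjEquiv g⁻¹ (hcjL g⁻¹)) (lm v) = lm u := Subtype.ext (funext fun n => by
          rw [compIrr_apply, hg, Clifford.conjChar_apply]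
          exact congrArg _ (Subtype.ext (by simp [coe_cjEquiv])))
        have hgT := hfixT g⁻¹ v u h1
        refine ⟨(QuotientGroup.mk (⟨g⁻¹, hgT⟩ : T) : T ⧸ N), ?_⟩
        exact (hsmul _ v).trans (hlminj ((hmove g⁻¹ hgT v).symm.trans h1))
    · rw [smul_eq_mul]
      refine Nat.mul_le_mul_right _ ?_
      rwa [hF0, ← Nat.card_eq_finsetCard,
        Nat.card_congr (Equiv.subtypeEquivRight fun χ => by simp :
          {x // x ∈ Finset.univ.filter fun χ : IrrCharacter G => χ ∈ B ∧
            blockHeight p B (χ : G → ℂ) = 0} ≃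
          {χ : IrrCharacter G // χ ∈ B ∧ blockHeight p B (χ : G → ℂ) = 0})]
  have h := card_le_three m hm0 hp2 hM hE hΛ τ hfaith hone hbad hbound
  rwa [Nat.card_congr (MulEquiv.monoidHomCongrLeft (Subgroup.subgroupOfEquivOfLe
    (le_sup_left : P ≤ L))).toEquiv] at h

end CfsgLib.SmallBlocks.NormalDef
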