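import Cfsg.Agent.Lib.SmallBlocks.NormalDef.Block
import Cfsg.Agent.Lib.BrauerCharacters.Consequences
import Cfsg.Agent.Lib.BrauerCharacters.Rank
import Cfsg.Agent.S4607

/-!
# Blocks with three characters and matching height-zero counts
-/

set_option autoImplicit false
set_option linter.unusedSectionVars false
set_option linter.style.haveILetI false

open Cfsg CfsgLib.Blocks CfsgLib.BrauerCharacters

namespace CfsgLib.SmallBlocks.NormalDef

universe u

/-- A `p`-group with at most three linear characters, `p` odd. -/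
theorem card_eq_three_of_lin {P : Type u} [Group P] [Finite P] {p : ℕ} [hp : Fact p.Prime]
    (hp2 : p ≠ 2) (hP : IsPGroup p P) (hne : Nat.card P ≠ 1) (h : Nat.card (P →* ℂˣ) ≤ 3) :
    Nat.card P = 3 := by
  classical
  have hcard : Nat.card (P →* ℂˣ) = Nat.card (Abelianization P) := by
    rw [Nat.card_congr Abelianization.lift]
    exact CommGroup.card_monoidHom_of_hasEnoughRootsOfUnity (Abelianization P) ℂ
  rw [hcard] at h
  obtain ⟨i, hi⟩ := IsPGroup.iff_card.1
    (hP.of_surjective (Abelianization.of) Quotient.mk''_surjective)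
  have hi0 : i ≠ 0 := by
    rintro rfl
    rw [pow_zero] at hi
    have hcomm : commutator P = ⊤ := by
      rw [← Subgroup.index_eq_one, Subgroup.index_eq_card]
      exact hi
    have hfr : frattini P = ⊤ := top_le_iff.1 (hcomm ▸ PGroups.commutator_le_frattini hP)
    have hbot : (⊥ : Subgroup P) = ⊤ := frattini_nongenerating (by rw [hfr, bot_sup_eq])
    exact hne (by rw [← Subgroup.card_top, ← hbot, Subgroup.card_bot])
  have hp3 : p = 3 ∧ i = 1 := by
    have h1 : p ≤ p ^ i := Nat.le_self_pow hi0 p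
    have h2 := hp.out.two_le
    have hp3 : p = 3 := by omega
    subst hp3
    refine ⟨rfl, le_antisymm ?_ (Nat.pos_of_ne_zero hi0)⟩
    by_contra hi2
    have : 3 ^ 2 ≤ 3 ^ i := Nat.pow_le_pow_right (by norm_num) (by omega)
    omega
  obtain ⟨rfl, rfl⟩ := hp3
  rw [pow_one] at hi
  haveI : IsCyclic (Abelianization P) := isCyclic_of_prime_card (p := 3) hi
  obtain ⟨g, hg⟩ := IsCyclic.exists_generator (α := Abelianization P)
  obtain ⟨x, rfl⟩ := Quotient.mk''_surjective g
  have hx : Subgroup.zpowers x = ⊤ := by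
    refine frattini_nongenerating (eq_top_iff.2 fun y _ => ?_)
    obtain ⟨j, hj⟩ := Subgroup.mem_zpowers_iff.1 (hg (Abelianization.of y))
    have h1 : (x ^ j)⁻¹ * y ∈ commutator P := by
      rw [← Abelianization.ker_of P, MonoidHom.mem_ker, map_mul, map_inv, map_zpow]
      rw [show Abelianization.of x = (Quotient.mk'' x : Abelianization P) from rfl, hj, inv_mul_cancel]
    rw [show y = x ^ j * ((x ^ j)⁻¹ * y) by group]
    exact Subgroup.mul_mem_sup (Subgroup.zpow_mem_zpowers x j) (PGroups.commutator_le_frattini hP h1)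
  haveI : IsCyclic P := ⟨⟨x, fun y => by show y ∈ Subgroup.zpowers x; rw [hx]; exact Subgroup.mem_top y⟩⟩
  letI : CommGroup P := IsCyclic.commGroup
  rw [← hi]
  exact Nat.card_congr Abelianization.equivOfComm.toEquiv

variable {G : Type u} [Group G] [Finite G] {p : ℕ} [Fact p.Prime] {M : Ideal AlgInt} [M.IsPrime]
  {B : Set (IrrCharacter G)}

theorem sq_emod_four {x : ℤ} : (¬ (2 : ℤ) ∣ x → x ^ 2 % 4 = 1) ∧ ((2 : ℤ) ∣ x → x ^ 2 % 4 = 0) := by
  constructor
  · intro hx
    obtain ⟨k, rfl⟩ : ∃ k, x = 2 * k + 1 := ⟨x / 2, by omega⟩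
    rw [show (2 * k + 1) ^ 2 = 1 + 4 * (k ^ 2 + k) by ring, Int.add_mul_emod_self_left]
    rfl
  · rintro ⟨k, rfl⟩
    rw [show (2 * k) ^ 2 = 4 * k ^ 2 by ring, Int.mul_emod_right]

/-- With three characters the prime is odd. -/
theorem ne_two_of_card_eq_three (hM : IsPModular p M) (hB : IsPBlock M B) {D : Subgroup G}
    (hD : IsDefectGroup p M B D) (hk : Nat.card B = 3) : p ≠ 2 := by
  classical
  rintro rfl
  haveI := Fintype.ofFinite G
  have hw := weakOrth (p := 2) hM hB
  have hne := isPBlock_nonempty hB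
  obtain ⟨j, hj, hj0⟩ := exists_height_eq_zero (p := 2) hne
  have hd2 : 2 ≤ blockDefect 2 B := by
    by_contra hlt
    push Not at hlt
    rcases Nat.le_one_iff_eq_zero_or_eq_one.1 (Nat.lt_succ_iff.1 hlt) with h0 | h1
    · have := eq_singleton_of_defect_zero hw hM hB h0
      omega
    · have hcard : Nat.card D = 2 := by rw [card_isDefectGroup hM hB hD, h1, pow_one]
      have := (Cfsg.Agent.S4607.result 2 M hM B hB D hD).2 hcard
      omega
  have hsq := sum_regEntry_sq (p := 2) hw hj
  have h4 : (4 : ℤ) ∣ ∑ ψ ∈ blockFinset B, regEntry 2 B j ψ ^ 2 := by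
    rw [hsq]
    exact Dvd.dvd.mul_right (show (4 : ℤ) ∣ ((2 : ℕ) : ℤ) ^ blockDefect 2 B by
      exact ⟨2 ^ (blockDefect 2 B - 2), by
        rw [show (4 : ℤ) = 2 ^ 2 by norm_num, ← pow_add, Nat.add_sub_cancel' hd2]; norm_num⟩) _
  have hmod : ∀ ψ ∈ blockFinset B, regEntry 2 B j ψ ^ 2 % 4 =
      if blockHeight 2 B (ψ : G → ℂ) = 0 then 1 else 0 := by
    intro ψ hψ
    have hψB := mem_blockFinset.1 hψ
    split_ifs with h
    · refine sq_emod_four.1 ?_
      have := not_pow_succ_height_dvd hw hM hB hj hψB h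
      rwa [hj0, zero_add, pow_one] at this
    · refine sq_emod_four.2 ?_
      have := pow_height_dvd (p := 2) hψB j
      rw [regEntry_comm] at this
      exact (dvd_pow_self _ h).trans this
  have hcount : ((blockFinset B).filter fun ψ : IrrCharacter G => blockHeight 2 B (ψ : G → ℂ) = 0).card % 4 = 0 := by
    have h := Int.emod_eq_zero_of_dvd h4
    rw [Finset.sum_int_mod, Finset.sum_congr rfl hmod, Finset.sum_boole] at h
    omega
  have hle := Finset.card_filter_le (blockFinset B) fun ψ : IrrCharacter G => blockHeight 2 B (ψ : G → ℂ) = 0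
  rw [card_blockFinset, hk] at hle
  have hpos : 0 < ((blockFinset B).filter fun ψ : IrrCharacter G => blockHeight 2 B (ψ : G → ℂ) = 0).card :=
    Finset.card_pos.2 ⟨j, Finset.mem_filter.2 ⟨mem_blockFinset.2 hj, hj0⟩⟩
  omega

/-- Three characters and matching height-zero counts force defect groups of order three. -/
theorem card_eq_three (hM : IsPModular p M) (hB : IsPBlock M B) {D : Subgroup G}
    (hD : IsDefectGroup p M B D) (hk : Nat.card B = 3)
    {b : Set (IrrCharacter (Subgroup.normalizer (D : Set G)))}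
    (hb : IsPBlock M b) (hbD : IsDefectGroup p M b (D.subgroupOf (Subgroup.normalizer (D : Set G))))
    (hAM : Nat.card {χ : IrrCharacter G // χ ∈ B ∧ blockHeight p B (χ : G → ℂ) = 0} =
      Nat.card {ψ : IrrCharacter (Subgroup.normalizer (D : Set G)) // ψ ∈ b ∧
        blockHeight p b (ψ : Subgroup.normalizer (D : Set G) → ℂ) = 0}) :
    Nat.card D = 3 := by
  have hp2 := ne_two_of_card_eq_three hM hB hD hk
  have h3 : Nat.card {ψ : IrrCharacter (Subgroup.normalizer (D : Set G)) // ψ ∈ b ∧
      blockHeight p b (ψ : Subgroup.normalizer (D : Set G) → ℂ) = 0} ≤ 3 := by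
    rw [← hAM, ← hk]
    exact Nat.card_le_card_of_injective (fun χ => (⟨χ.1, χ.2.1⟩ : B))
      fun a c h => Subtype.ext (congrArg (fun x : B => (x : IrrCharacter G)) h)
  have h := card_lin_le_three (P := D.subgroupOf (Subgroup.normalizer (D : Set G))) hp2 hM hb hbD h3
  have hne : Nat.card (D.subgroupOf (Subgroup.normalizer (D : Set G))) ≠ 1 := by
    intro h1
    haveI := Fintype.ofFinite G
    have hd : blockDefect p B = 0 := by
      have := card_isDefectGroup hM hB hD
      rw [← Nat.card_congr (Subgroup.subgroupOfEquivOfLe (Subgroup.le_normalizer : D ≤ Subgroup.normalizer (D : Set G))).toEquiv, h1]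
        at this
      exact (Nat.pow_right_injective (Fact.out : p.Prime).two_le (this.symm.trans (pow_zero p).symm))
    have := eq_singleton_of_defect_zero (weakOrth (p := p) hM hB) hM hB hd
    omega
  rw [← Nat.card_congr (Subgroup.subgroupOfEquivOfLe (Subgroup.le_normalizer : D ≤ Subgroup.normalizer (D : Set G))).toEquiv]
  exact card_eq_three_of_lin hp2 (isPGroup_of_isDefectGroup hbD) hne h

end CfsgLib.SmallBlocks.NormalDef
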